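import Cfsg.Agent.H793.EP.Tools
import Cfsg.Agent.H918.TransvTensor
import Cfsg.Agent.H905.SLProper
import Cfsg.Agent.H908.SLTrans

/-!
# S3499, linear groups, class C1 (helper793): `m.hat A` is in no stabiliser of a subspace
-/

set_option autoImplicit false

namespace Cfsg.Agent.H793.EP

open Subgroup Cfsg Cfsg.Geo Cfsg.Agent.H284 Cfsg.Agent.H419.EP
open scoped Matrix MatrixGroups

section transvections

variable {ι : Type} [Fintype ι] [DecidableEq ι] {F : Type*} [Field F]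

/-- the transvection `v ↦ v + (r ⬝ v) c` -/
noncomputable def tvn (c r : ι → F) (h : r ⬝ᵥ c = 0) : GL ι F :=
  H908.slMk (1 + Matrix.vecMulVec c r) (by
    rw [Matrix.vecMulVec_eq Unit, Matrix.det_one_add_replicateCol_mul_replicateRow, h, add_zero])

theorem tvn_mem (c r : ι → F) (h : r ⬝ᵥ c = 0) : tvn c r h ∈ specialLinear ι F := H908.slMk_mem _ _

theorem tvn_coe (c r : ι → F) (h : r ⬝ᵥ c = 0) : (tvn c r h : Matrix ι ι F) = 1 + Matrix.vecMulVec c r := rfl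

theorem tvn_mulVec (c r : ι → F) (h : r ⬝ᵥ c = 0) (v : ι → F) :
    (tvn c r h : Matrix ι ι F) *ᵥ v = v + (r ⬝ᵥ v) • c := H918.IsRankOneElt.mulVec (tvn_coe c r h) v

theorem tvn_inv_mulVec (c r : ι → F) (h : r ⬝ᵥ c = 0) (v : ι → F) :
    (((tvn c r h)⁻¹ : GL ι F) : Matrix ι ι F) *ᵥ v = v - (r ⬝ᵥ v) • c := by
  have h1 : (tvn c r h : Matrix ι ι F) *ᵥ (v - (r ⬝ᵥ v) • c) = v := by
    rw [tvn_mulVec, dotProduct_sub, dotProduct_smul, h, smul_zero, sub_zero, sub_add_cancel]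
  conv_lhs => rw [← h1]
  rw [Matrix.mulVec_mulVec, ← Units.val_mul, inv_mul_cancel, Units.val_one, Matrix.one_mulVec]

theorem exists_row (W : Submodule F (ι → F)) {v : ι → F} (hv : v ∉ W) :
    ∃ r : ι → F, (∀ w ∈ W, r ⬝ᵥ w = 0) ∧ r ⬝ᵥ v = 1 := by
  obtain ⟨f, hf, hf'⟩ := Submodule.exists_dual_map_eq_bot_of_notMem hv inferInstance
  have h1 : ∀ u : ι → F, (fun i => (f v)⁻¹ * f (Pi.single i 1)) ⬝ᵥ u = (f v)⁻¹ * f u := by
    intro u
    conv_rhs => rw [LinearMap.pi_apply_eq_sum_univ f u]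
    rw [dotProduct, Finset.mul_sum]
    refine Finset.sum_congr rfl fun i _ => ?_
    have h2 : (fun j => if i = j then (1 : F) else 0) = Pi.single i 1 := by
      funext j
      rw [Pi.single_apply]
      simp only [eq_comm]
    rw [h2, smul_eq_mul]
    ring
  refine ⟨fun i => (f v)⁻¹ * f (Pi.single i 1), ?_, ?_⟩
  · intro w hw
    have h2 : f w ∈ W.map f := ⟨w, hw, rfl⟩
    rw [hf', Submodule.mem_bot] at h2
    rw [h1, h2, mul_zero]
  · rw [h1, inv_mul_cancel₀ hf]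

/-- the data for the two transvections -/
theorem exists_data (hn : 3 ≤ Fintype.card ι) {W : Submodule F (ι → F)} (hW : W ≠ ⊥) (hW' : W ≠ ⊤) :
    ∃ c d r s : ι → F, c ∈ W ∧ c ≠ 0 ∧ d ∉ W ∧ (∀ w ∈ W, r ⬝ᵥ w = 0) ∧ (∃ v, r ⬝ᵥ v = 1) ∧ s ⬝ᵥ d = 0 ∧
      (∃ w ∈ W, s ⬝ᵥ w ≠ 0) ∧ (r ⬝ᵥ d) * (s ⬝ᵥ c) = 0 := by
  classical
  obtain ⟨c, hc, hc0⟩ := Submodule.exists_mem_ne_zero_of_ne_bot hW
  by_cases hall : ∃ d, d ∉ W ∧ W ⊔ Submodule.span F {d} ≠ ⊤
  · obtain ⟨d, hd, hne⟩ := hall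
    obtain ⟨v, hv⟩ : ∃ v, v ∉ W ⊔ Submodule.span F {d} := by
      by_contra hcon
      push Not at hcon
      exact hne (Submodule.eq_top_iff'.2 hcon)
    obtain ⟨r, hr, hrv⟩ := exists_row _ hv
    have hcd : c ∉ Submodule.span F {d} := by
      intro h1
      obtain ⟨a, ha⟩ := Submodule.mem_span_singleton.1 h1
      have ha0 : a ≠ 0 := by
        rintro rfl
        rw [zero_smul] at ha
        exact hc0 ha.symm
      apply hd
      have : d = a⁻¹ • c := by rw [← ha, smul_smul, inv_mul_cancel₀ ha0, one_smul]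
      rw [this]
      exact W.smul_mem _ hc
    obtain ⟨s, hs, hsc⟩ := exists_row _ hcd
    have hrd : r ⬝ᵥ d = 0 := hr d (Submodule.mem_sup_right (Submodule.mem_span_singleton_self d))
    refine ⟨c, d, r, s, hc, hc0, hd, fun w hw => hr w (Submodule.mem_sup_left hw), ⟨v, hrv⟩,
      hs d (Submodule.mem_span_singleton_self d), ⟨c, hc, by rw [hsc]; exact one_ne_zero⟩, by rw [hrd, zero_mul]⟩
  · push Not at hall
    obtain ⟨d, hd⟩ : ∃ d, d ∉ W := by
      by_contra hcon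
      push Not at hcon
      exact hW' (Submodule.eq_top_iff'.2 hcon)
    have htop := hall d hd
    obtain ⟨r, hr, hrv⟩ := exists_row _ hd
    obtain ⟨v, hv⟩ : ∃ v, v ∉ Submodule.span F {c, d} := by
      by_contra hcon
      push Not at hcon
      have h1 : Submodule.span F {c, d} = ⊤ := Submodule.eq_top_iff'.2 hcon
      have h2 : Module.finrank F (Submodule.span F ((({c, d} : Finset (ι → F)) : Set (ι → F)))) ≤ _ :=
        finrank_span_finset_le_card {c, d}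
      rw [Finset.coe_insert, Finset.coe_singleton, h1, finrank_top, Module.finrank_fintype_fun_eq_card] at h2
      have h3 := Finset.card_le_two (a := c) (b := d)
      omega
    obtain ⟨s, hs, hsv⟩ := exists_row _ hv
    have hsc : s ⬝ᵥ c = 0 := hs c (Submodule.subset_span (by simp))
    have hsd : s ⬝ᵥ d = 0 := hs d (Submodule.subset_span (by simp))
    refine ⟨c, d, r, s, hc, hc0, hd, hr, ⟨d, hrv⟩, hsd, ?_, by rw [hsc, mul_zero]⟩
    have h1 : v ∈ W ⊔ Submodule.span F {d} := by rw [htop]; exact Submodule.mem_top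
    obtain ⟨w, hw, y, hy, e⟩ := Submodule.mem_sup.1 h1
    obtain ⟨a, rfl⟩ := Submodule.mem_span_singleton.1 hy
    refine ⟨w, hw, ?_⟩
    rw [← e, dotProduct_add, dotProduct_smul, hsd, smul_zero, add_zero] at hsv
    rw [hsv]
    exact one_ne_zero

/-- the elements trivial on `W` and on `V/W` -/
def rad (W : Submodule F (ι → F)) : Subgroup (GL ι F) where
  carrier := {g | (∀ w ∈ W, (g : Matrix ι ι F) *ᵥ w = w) ∧ ∀ v, (g : Matrix ι ι F) *ᵥ v - v ∈ W}
  one_mem' := by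
    constructor
    · intro w _
      rw [Units.val_one, Matrix.one_mulVec]
    · intro v
      rw [Units.val_one, Matrix.one_mulVec, sub_self]
      exact W.zero_mem
  mul_mem' := by
    rintro g k ⟨h1, h2⟩ ⟨h3, h4⟩
    constructor
    · intro w hw
      rw [Units.val_mul, ← Matrix.mulVec_mulVec, h3 w hw, h1 w hw]
    · intro v
      have e : ((g * k : GL ι F) : Matrix ι ι F) *ᵥ v - v =
          ((k : Matrix ι ι F) *ᵥ v - v) + ((g : Matrix ι ι F) *ᵥ v - v) := by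
        have h5 := h1 _ (h4 v)
        rw [Matrix.mulVec_sub] at h5
        rw [Units.val_mul, ← Matrix.mulVec_mulVec, ← h5]
        abel
      rw [e]
      exact W.add_mem (h4 v) (h2 v)
  inv_mem' := by
    rintro g ⟨h1, h2⟩
    have h3 : ∀ w ∈ W, ((g⁻¹ : GL ι F) : Matrix ι ι F) *ᵥ w = w := by
      intro w hw
      conv_lhs => rw [← h1 w hw]
      rw [Matrix.mulVec_mulVec, ← Units.val_mul, inv_mul_cancel, Units.val_one, Matrix.one_mulVec]
    refine ⟨h3, ?_⟩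
    intro v
    have h4 := h3 _ (h2 v)
    rw [Matrix.mulVec_sub, Matrix.mulVec_mulVec, ← Units.val_mul, inv_mul_cancel, Units.val_one,
      Matrix.one_mulVec] at h4
    have e : ((g⁻¹ : GL ι F) : Matrix ι ι F) *ᵥ v - v = - ((g : Matrix ι ι F) *ᵥ v - v) := by
      rw [← h4]
      abel
    rw [e]
    exact W.neg_mem (h2 v)

theorem mem_rad {W : Submodule F (ι → F)} {g : GL ι F} :
    g ∈ rad W ↔ (∀ w ∈ W, (g : Matrix ι ι F) *ᵥ w = w) ∧ ∀ v, (g : Matrix ι ι F) *ᵥ v - v ∈ W := Iff.rfl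

theorem rad_pow {W : Submodule F (ι → F)} {g : GL ι F} (hg : g ∈ rad W) (k : ℕ) (v : ι → F) :
    ((g ^ k : GL ι F) : Matrix ι ι F) *ᵥ v = v + (k : F) • ((g : Matrix ι ι F) *ᵥ v - v) := by
  induction k with
  | zero => rw [pow_zero, Units.val_one, Matrix.one_mulVec, Nat.cast_zero, zero_smul, add_zero]
  | succ k ih =>
    rw [pow_succ', Units.val_mul, ← Matrix.mulVec_mulVec, ih, Matrix.mulVec_add, Matrix.mulVec_smul,
      hg.1 _ (hg.2 v), Nat.cast_succ, add_smul, one_smul]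
    abel

theorem rad_pow_char {p : ℕ} [CharP F p] {W : Submodule F (ι → F)} {g : GL ι F} (hg : g ∈ rad W) : g ^ p = 1 := by
  apply Units.ext
  apply Matrix.toLin'.injective
  apply LinearMap.ext
  intro v
  rw [Matrix.toLin'_apply, rad_pow hg, CharP.cast_eq_zero, zero_smul, add_zero, Units.val_one, Matrix.toLin'_one]
  rfl

theorem rad_conj {W : Submodule F (ι → F)} {a g : GL ι F} (ha : a ∈ subspaceStabilizer W) (hg : g ∈ rad W) :
    a * g * a⁻¹ ∈ rad W := by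
  have ha' : a⁻¹ ∈ subspaceStabilizer W := inv_mem ha
  have h1 : ∀ v, (a : Matrix ι ι F) *ᵥ (((a⁻¹ : GL ι F) : Matrix ι ι F) *ᵥ v) = v := by
    intro v
    rw [Matrix.mulVec_mulVec, ← Units.val_mul, mul_inv_cancel, Units.val_one, Matrix.one_mulVec]
  constructor
  · intro w hw
    rw [Units.val_mul, Units.val_mul, ← Matrix.mulVec_mulVec, ← Matrix.mulVec_mulVec,
      hg.1 _ ((H905.mulVec_mem_iff_of_mem_subspaceStabilizer ha' w).1 hw), h1]
  · intro v
    have h2 := (H905.mulVec_mem_iff_of_mem_subspaceStabilizer ha _).1 (hg.2 (((a⁻¹ : GL ι F) : Matrix ι ι F) *ᵥ v))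
    rw [Matrix.mulVec_sub, h1] at h2
    rw [Units.val_mul, Units.val_mul, ← Matrix.mulVec_mulVec, ← Matrix.mulVec_mulVec]
    exact h2

theorem rad_le (W : Submodule F (ι → F)) : rad W ≤ subspaceStabilizer W := by
  have key : ∀ g ∈ rad W, ∀ v ∈ W, (g : Matrix ι ι F) *ᵥ v ∈ W := fun g hg v hv => by
    rw [hg.1 v hv]
    exact hv
  intro g hg v
  refine ⟨key g hg v, fun h1 => ?_⟩
  have h2 := key _ (inv_mem hg) _ h1
  change ((g⁻¹ : GL ι F) : Matrix ι ι F) *ᵥ ((g : Matrix ι ι F) *ᵥ v) ∈ W at h2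
  rw [Matrix.mulVec_mulVec, ← Units.val_mul, inv_mul_cancel, Units.val_one, Matrix.one_mulVec] at h2
  exact h2

theorem mem_stab_of_le {W : Submodule F (ι → F)} {g : GL ι F} (h1 : ∀ v ∈ W, (g : Matrix ι ι F) *ᵥ v ∈ W)
    (h2 : ∀ v ∈ W, ((g⁻¹ : GL ι F) : Matrix ι ι F) *ᵥ v ∈ W) : g ∈ subspaceStabilizer W := by
  intro v
  refine ⟨h1 v, fun h3 => ?_⟩
  have h4 := h2 _ h3
  change ((g⁻¹ : GL ι F) : Matrix ι ι F) *ᵥ ((g : Matrix ι ι F) *ᵥ v) ∈ W at h4
  rw [Matrix.mulVec_mulVec, ← Units.val_mul, inv_mul_cancel, Units.val_one, Matrix.one_mulVec] at h4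
  exact h4

end transvections

variable {Q : Type*} [Group Q] [Finite Q] {A : Subgroup Q} {Γ : Subgroup (MulAut Q)}
  {F : Type*} [Field F] [Fintype F] {ι : Type} [Fintype ι] [DecidableEq ι]

/-- **(SL-C1)** `m.hat A` is in no stabiliser of a subspace -/
theorem sl_c1' (h : EPT A Γ) (m : Model Q (specialLinear ι F)) (hn : 3 ≤ Fintype.card ι)
    {W : Submodule F (ι → F)} (hW : W ≠ ⊥) (hW' : W ≠ ⊤) (hA : m.hat A ≤ subspaceStabilizer W) : False := by
  obtain ⟨p, hp⟩ := CharP.exists F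
  have hpp : Fact p.Prime := ⟨CharP.char_is_prime F p⟩
  have hAeq := H918.eq_inf_of_maximal (m.isMaximalIn h.max) hA (H905.not_sl_le_subspaceStabilizer hW hW')
  obtain ⟨c, d, r, s, hc, hc0, hd, hr, ⟨v, hv⟩, hsd, ⟨w, hw, hsw⟩, hrs⟩ := exists_data hn hW hW'
  have hrc : r ⬝ᵥ c = 0 := hr c hc
  set t : GL ι F := tvn c r hrc with ht
  set x : GL ι F := tvn d s hsd with hx
  have hxS : x ∈ specialLinear ι F := tvn_mem _ _ _
  have htS : t ∈ specialLinear ι F := tvn_mem _ _ _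
  -- `t` is in the radical
  have htr : t ∈ rad W := by
    constructor
    · intro y hy
      rw [ht, tvn_mulVec, hr y hy, zero_smul, add_zero]
    · intro y
      rw [ht, tvn_mulVec, add_sub_cancel_left]
      exact W.smul_mem _ hc
  -- `x` does not stabilise `W`
  have hxA : x ∉ m.hat A := by
    rw [hAeq]
    rintro ⟨h1, -⟩
    have h2 := (H905.mulVec_mem_iff_of_mem_subspaceStabilizer h1 w).1 hw
    rw [hx, tvn_mulVec] at h2
    have h3 : (s ⬝ᵥ w) • d ∈ W := by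
      have := W.sub_mem h2 hw
      rwa [add_sub_cancel_left] at this
    apply hd
    have h4 := W.smul_mem (s ⬝ᵥ w)⁻¹ h3
    rwa [smul_smul, inv_mul_cancel₀ hsw, one_smul] at h4
  -- the conjugate of `t` stabilises `W`
  have key : ∀ (b : F) (y : ι → F), y ∈ W → ((x⁻¹ : GL ι F) : Matrix ι ι F) *ᵥ
      (((x : Matrix ι ι F) *ᵥ y) + (b * (r ⬝ᵥ ((x : Matrix ι ι F) *ᵥ y))) • c) ∈ W := by
    intro b y hy
    rw [hx, tvn_inv_mulVec, tvn_mulVec]
    have e1 : r ⬝ᵥ (y + (s ⬝ᵥ y) • d) = (s ⬝ᵥ y) * (r ⬝ᵥ d) := by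
      rw [dotProduct_add, dotProduct_smul, hr y hy, zero_add, smul_eq_mul]
    have e2 : s ⬝ᵥ (y + (s ⬝ᵥ y) • d + (b * ((s ⬝ᵥ y) * (r ⬝ᵥ d))) • c) = s ⬝ᵥ y := by
      rw [dotProduct_add, dotProduct_add, dotProduct_smul, dotProduct_smul, hsd, smul_zero, add_zero, smul_eq_mul]
      linear_combination b * (s ⬝ᵥ y) * hrs
    rw [e1, e2]
    have e3 : y + (s ⬝ᵥ y) • d + (b * ((s ⬝ᵥ y) * (r ⬝ᵥ d))) • c - (s ⬝ᵥ y) • d =
        y + (b * ((s ⬝ᵥ y) * (r ⬝ᵥ d))) • c := by abel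
    rw [e3]
    exact W.add_mem hy (W.smul_mem _ hc)
  have hxt : x⁻¹ * t * x ∈ m.hat A := by
    rw [hAeq]
    refine ⟨mem_stab_of_le ?_ ?_, (specialLinear ι F).mul_mem ((specialLinear ι F).mul_mem
      ((specialLinear ι F).inv_mem hxS) htS) hxS⟩
    · intro y hy
      rw [Units.val_mul, Units.val_mul, ← Matrix.mulVec_mulVec, ← Matrix.mulVec_mulVec, ht, tvn_mulVec c r hrc]
      have := key 1 y hy
      rwa [one_mul] at this
    · intro y hy
      have e : (x⁻¹ * t * x)⁻¹ = x⁻¹ * t⁻¹ * x := by group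
      rw [e, Units.val_mul, Units.val_mul, ← Matrix.mulVec_mulVec, ← Matrix.mulVec_mulVec, ht,
        tvn_inv_mulVec c r hrc, sub_eq_add_neg, ← neg_smul]
      have := key (-1) y hy
      rwa [neg_one_mul] at this
  -- the image of the radical
  set K : Subgroup Q := ((rad W).subgroupOf (specialLinear ι F)).map m.π with hK
  have hKA : K ≤ A := by
    rintro _ ⟨k, hk, rfl⟩
    rw [← m.mem_hat_iff, hAeq]
    exact ⟨rad_le W hk, k.2⟩
  have hKn : ∀ a ∈ A, ∀ k ∈ K, a * k * a⁻¹ ∈ K := by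
    rintro a ha _ ⟨k, hk, rfl⟩
    obtain ⟨b, rfl⟩ := m.surj a
    rw [← m.mem_hat_iff, hAeq] at ha
    refine ⟨b * k * b⁻¹, rad_conj ha.1 hk, ?_⟩
    rw [map_mul, map_mul, map_inv]
  have hKp : IsPGroup p K := by
    rintro ⟨_, k, hk, rfl⟩
    refine ⟨1, Subtype.ext ?_⟩
    rw [pow_one]
    change (m.π k) ^ p = 1
    rw [← map_pow]
    have : k ^ p = 1 := Subtype.ext (rad_pow_char hk)
    rw [this, map_one]
  have hxA' : m.π ⟨x, hxS⟩ ∉ A := fun h1 => hxA ((m.mem_hat_iff ⟨x, hxS⟩).2 h1)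
  have h1 := pgroup_free h hKA hKn hKp hxA' (k := m.π ⟨t, htS⟩) ⟨⟨t, htS⟩, htr, rfl⟩ (by
    rw [mem_cj, ← map_inv, ← map_mul, ← map_mul, ← m.mem_hat_iff]
    exact hxt)
  rw [m.ker] at h1
  obtain ⟨b, hb⟩ := (mem_scalars_iff t).1 h1
  -- a scalar transvection is trivial
  have h2 : (t : Matrix ι ι F) *ᵥ c = c := htr.1 c hc
  rw [hb, Matrix.smul_mulVec, Matrix.one_mulVec] at h2
  have h3 : (b : F) = 1 := by
    have h4 : ((b : F) - 1) • c = 0 := by rw [sub_smul, one_smul, h2, sub_self]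
    rcases smul_eq_zero.1 h4 with h5 | h5
    · exact sub_eq_zero.1 h5
    · exact absurd h5 hc0
  have h4 : (t : Matrix ι ι F) *ᵥ v = v := by rw [hb, h3, one_smul, Matrix.one_mulVec]
  rw [ht, tvn_mulVec, hv, one_smul, add_eq_left] at h4
  exact hc0 h4

/-- **(SL-C1)** -/
theorem sl_c1 (_hs : IsSimpleGroup Q) (h : EPT A Γ) {n : ℕ} (m : Model Q (specialLinear (Fin n) F)) (hn : 3 ≤ n)
    {W : Submodule F (Fin n → F)} (hW : W ≠ ⊥) (hW' : W ≠ ⊤) (hA : m.hat A ≤ subspaceStabilizer W) : False :=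
  sl_c1' h m (by rwa [Fintype.card_fin]) hW hW' hA

end Cfsg.Agent.H793.EP
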